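import Cfsg.Agent.H878.JM.FiveTest
import Cfsg.Agent.H111.JM.PcData

/-!
# The test `tst` on the pieces 32 to 35 (generated, tools/h878/genpieces.py)
-/

set_option autoImplicit false
set_option maxRecDepth 100000

namespace Cfsg.Agent.H878.JM.FT

open Cfsg.Agent.H111.JM.Eng Cfsg.Agent.H111.JM.Pc Cfsg.Agent.H111.JM.Env Cfsg.Agent.H878.JM.FiveTest

theorem r32 : pc32.chk 112 LC LC LT tst = true := by decide +kernel

theorem r33 : pc33.chk 112 LC LC LT tst = true := by decide +kernel

theorem r34 : pc34.chk 112 LC LC LT tst = true := by decide +kernel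

theorem r35 : pc35.chk 112 LC LC LT tst = true := by decide +kernel

end Cfsg.Agent.H878.JM.FT
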